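import Cfsg.Agent.H216.StarCrit
import Cfsg.Agent.H346.CoxA
import Cfsg.Agent.H661.SporAlt

/-!
# `Star p` fails in alternating groups and in groups containing them (helper216)

* `bad3_alt` : `n ≥ 8`, `bad5_alt` : `n ≥ 10`;
* `bad3_of_rel`, `bad5_of_rel` : groups with Coxeter generators of type `A₇`, `A₉`.
-/

set_option autoImplicit false

namespace Cfsg.Agent.H216.StarCrit

open Cfsg Cfsg.Agent.H790 Subgroup Equiv Equiv.Perm

/-- the configuration of the criterion `Star.false_pair` -/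
def Pair (p : ℕ) (G : Type*) [Group G] : Prop :=
  ∃ (x g h : G) (k : ℕ), x ^ p = 1 ∧ x * (g * x * g⁻¹) = (g * x * g⁻¹) * x ∧ h * x * h⁻¹ = x ^ k ∧ x ^ k ≠ x ∧
    h * (g * x * g⁻¹) * h⁻¹ = g * x * g⁻¹

theorem Pair.bad {p : ℕ} {G : Type*} [Group G] [Fact p.Prime] (h : Pair p G) : Bad p G := by
  obtain ⟨x, g, c, k, h1, h2, h3, h4, h5⟩ := h
  exact fun hG => Star.false_pair hG h1 h2 h3 h4 h5

theorem Pair.map {p : ℕ} {G H : Type*} [Group G] [Group H] (f : G →* H) {x g h : G} {k : ℕ} (h1 : x ^ p = 1)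
    (h2 : x * (g * x * g⁻¹) = (g * x * g⁻¹) * x) (h3 : h * x * h⁻¹ = x ^ k)
    (h5 : h * (g * x * g⁻¹) * h⁻¹ = g * x * g⁻¹) (h4 : f x ^ k ≠ f x) : Pair p H := by
  refine ⟨f x, f g, f h, k, ?_, ?_, ?_, h4, ?_⟩
  · rw [← map_pow, h1, map_one]
  · rw [← map_inv, ← map_mul, ← map_mul, ← map_mul, h2, map_mul]
  · rw [← map_inv, ← map_mul, ← map_mul, h3, map_pow]
  · rw [← map_inv, ← map_inv, ← map_mul, ← map_mul, ← map_mul, ← map_mul, h5]

/-- the configuration in a subgroup -/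
theorem Pair.restrict {p : ℕ} {G : Type*} [Group G] {H : Subgroup G} {x g h : G} {k : ℕ} (mx : x ∈ H) (mg : g ∈ H)
    (mh : h ∈ H) (h1 : x ^ p = 1)
    (h2 : x * (g * x * g⁻¹) = (g * x * g⁻¹) * x) (h3 : h * x * h⁻¹ = x ^ k) (h4 : x ^ k ≠ x)
    (h5 : h * (g * x * g⁻¹) * h⁻¹ = g * x * g⁻¹) : Pair p H :=
  ⟨⟨x, mx⟩, ⟨g, mg⟩, ⟨h, mh⟩, k, Subtype.ext h1, Subtype.ext h2, Subtype.ext h3,
    fun h => h4 (congrArg Subtype.val h), Subtype.ext h5⟩

namespace Alt

def x3 : Perm (Fin 8) := c[0, 1, 2]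
def g3 : Perm (Fin 8) := swap 0 3 * swap 1 4 * swap 2 5 * swap 6 7
def h3 : Perm (Fin 8) := swap 1 2 * swap 6 7

theorem x3_pow : x3 ^ 3 = 1 := by decide +kernel
theorem comm3 : x3 * (g3 * x3 * g3⁻¹) = (g3 * x3 * g3⁻¹) * x3 := by decide +kernel
theorem conj3 : h3 * x3 * h3⁻¹ = x3 ^ 2 := by decide +kernel
theorem ne3 : x3 ^ 2 ≠ x3 := by decide +kernel
theorem fix3 : h3 * (g3 * x3 * g3⁻¹) * h3⁻¹ = g3 * x3 * g3⁻¹ := by decide +kernel
theorem sign_x3 : x3 ∈ alternatingGroup (Fin 8) := by rw [mem_alternatingGroup]; decide +kernel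
theorem sign_g3 : g3 ∈ alternatingGroup (Fin 8) := by rw [mem_alternatingGroup]; decide +kernel
theorem sign_h3 : h3 ∈ alternatingGroup (Fin 8) := by rw [mem_alternatingGroup]; decide +kernel

theorem pair3 : Pair 3 (alternatingGroup (Fin 8)) :=
  Pair.restrict sign_x3 sign_g3 sign_h3 x3_pow comm3 conj3 ne3 fix3

def x5 : Perm (Fin 10) := c[0, 1, 2, 3, 4]
def g5 : Perm (Fin 10) := swap 5 6 * swap 0 5 * swap 1 6 * swap 2 7 * swap 3 8 * swap 4 9
def h5 : Perm (Fin 10) := swap 1 4 * swap 2 3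

theorem x5_pow : x5 ^ 5 = 1 := by decide +kernel
theorem comm5 : x5 * (g5 * x5 * g5⁻¹) = (g5 * x5 * g5⁻¹) * x5 := by decide +kernel
theorem conj5 : h5 * x5 * h5⁻¹ = x5 ^ 4 := by decide +kernel
theorem ne5 : x5 ^ 4 ≠ x5 := by decide +kernel
theorem fix5 : h5 * (g5 * x5 * g5⁻¹) * h5⁻¹ = g5 * x5 * g5⁻¹ := by decide +kernel
theorem sign_x5 : x5 ∈ alternatingGroup (Fin 10) := by rw [mem_alternatingGroup]; decide +kernel
theorem sign_g5 : g5 ∈ alternatingGroup (Fin 10) := by rw [mem_alternatingGroup]; decide +kernel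
theorem sign_h5 : h5 ∈ alternatingGroup (Fin 10) := by rw [mem_alternatingGroup]; decide +kernel

theorem pair5 : Pair 5 (alternatingGroup (Fin 10)) :=
  Pair.restrict sign_x5 sign_g5 sign_h5 x5_pow comm5 conj5 ne5 fix5

/-- `A_m` embeds into `A_n`, `m ≤ n`. -/
theorem exists_emb {m n : ℕ} (hn : m ≤ n) : ∃ F : alternatingGroup (Fin m) →* alternatingGroup (Fin n), Function.Injective F := by
  classical
  let e : Fin m ≃ {i : Fin n // i ∈ Set.range (Fin.castLE hn)} :=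
    Equiv.ofInjective _ (Fin.castLE_injective hn)
  let f : Perm (Fin m) →* Perm (Fin n) := Equiv.Perm.extendDomainHom e
  have hf : Function.Injective f := Equiv.Perm.extendDomainHom_injective e
  have hs : ∀ g : Perm (Fin m), sign (f g) = sign g := fun g => Equiv.Perm.sign_extendDomain g e
  refine ⟨(f.comp (alternatingGroup (Fin m)).subtype).codRestrict (alternatingGroup (Fin n)) (fun g => by
      rw [mem_alternatingGroup, MonoidHom.comp_apply, hs]
      exact mem_alternatingGroup.1 g.2), ?_⟩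
  intro a b hab
  apply Subtype.ext
  apply hf
  exact congrArg Subtype.val hab

theorem bad3 {n : ℕ} (hn : 8 ≤ n) : Bad 3 (alternatingGroup (Fin n)) := by
  have : Fact (Nat.Prime 3) := ⟨Nat.prime_three⟩
  obtain ⟨F, hF⟩ := exists_emb hn
  exact pair3.bad.of_injective F hF

theorem bad5 {n : ℕ} (hn : 10 ≤ n) : Bad 5 (alternatingGroup (Fin n)) := by
  have : Fact (Nat.Prime 5) := ⟨Nat.prime_five⟩
  obtain ⟨F, hF⟩ := exists_emb hn
  exact pair5.bad.of_injective F hF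

end Alt

end Cfsg.Agent.H216.StarCrit
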