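import Cfsg.Agent.H216.StarCrit
import Cfsg.Agent.H794.MonThirteen

/-!
# `Star p` fails under helper794's hypotheses; the Monster at 13 (helper216)
-/

set_option autoImplicit false

namespace Cfsg.Agent.H216.StarMon

open Cfsg Cfsg.Agent.H790 Cfsg.Agent.H216.StarCrit Subgroup

/-- a nonabelian 2-group normalising `R` whose commutators do not centralise `R` -/
theorem bad_of_hyp {G : Type*} [Group G] [Finite G] {p : ℕ} [hp : Fact p.Prime] {x z : G} {Q : Subgroup G}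
    (h : H794.MonCube.Hyp p x z Q) : Bad p G := by
  intro hS
  obtain ⟨R, hRp, hxR, hRx, hQR, hRc, hno⟩ := h.exists_R
  obtain ⟨k, hk, l, hl, hkl⟩ := h.nc
  have hn : ∀ q ∈ Q, q ∈ normalizer (R : Set G) := fun q hq => mem_normalizer_of_finite (hQR q hq)
  have hmap : R.map (MulAut.conj k⁻¹).toMonoidHom = R := by
    refine Subgroup.eq_of_le_of_card_ge ?_ ?_
    · rintro _ ⟨r, hr, rfl⟩
      exact hQR k⁻¹ (inv_mem hk) r hr
    · rw [Subgroup.card_map_of_injective (MulAut.conj k⁻¹).injective]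
  obtain ⟨N, hN⟩ := hS.comm R k⁻¹ l⁻¹ (by rw [hmap, sup_idem]; exact hRp) (hn _ (inv_mem hl))
    (by rw [hmap]; exact hn _ (inv_mem hl))
  rw [inv_inv, inv_inv] at hN
  have hwQ : k * l * k⁻¹ * l⁻¹ ∈ Q := mul_mem (mul_mem (mul_mem hk hl) (inv_mem hk)) (inv_mem hl)
  obtain ⟨m, hm⟩ := h.q2 ⟨_, hwQ⟩
  have hm' : (k * l * k⁻¹ * l⁻¹) ^ 2 ^ m = 1 := congrArg Subtype.val hm
  apply hno k hk l hl hkl
  have hcop : IsCoprime ((p ^ N : ℕ) : ℤ) ((2 ^ m : ℕ) : ℤ) := by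
    rw [Nat.isCoprime_iff_coprime]
    exact Nat.Coprime.pow_left N (Nat.Coprime.pow_right m ((Nat.coprime_primes hp.out Nat.prime_two).2 h.hp2))
  obtain ⟨u, v, huv⟩ := hcop
  have hw : k * l * k⁻¹ * l⁻¹ ∈ centralizer (R : Set G) := by
    have e : k * l * k⁻¹ * l⁻¹ = ((k * l * k⁻¹ * l⁻¹) ^ p ^ N) ^ u := by
      conv_lhs => rw [← zpow_one (k * l * k⁻¹ * l⁻¹), ← huv, zpow_add, mul_comm v, zpow_mul _ (((2 ^ m : ℕ) : ℤ)) v,
        zpow_natCast, hm', one_zpow, mul_one, mul_comm u, zpow_mul, zpow_natCast]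
    rw [e]
    exact zpow_mem hN u
  exact (conj_fix_iff _ _).1 hw

/-- **The Monster, `p = 13`.** -/
theorem m_thirteen {G : Type*} [Group G] [Finite G] (h : Cfsg.Spor.IsoM G) : Bad 13 G := by
  obtain ⟨f⟩ := h
  obtain ⟨f'⟩ := Cfsg.Agent.MonsterP.Equiv.equiv
  have hfin := Cfsg.Agent.MFive.Row.finite_model
  have : Fact (Nat.Prime 13) := ⟨by norm_num⟩
  obtain ⟨x, z, Q, h⟩ := H794.MonThirteen.hyp_model
  exact Bad.congr (f.trans f').symm (bad_of_hyp h)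

end Cfsg.Agent.H216.StarMon
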