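import Cfsg.Agent.H412.Tc.Defs

/-!
# Three-closures of solvable groups: the centralizer of the Heisenberg group (helper216)

`T3.main` : in the situation `SetB`, a subgroup of `cl2 A` centralizing `B` is solvable.
-/

set_option autoImplicit false

namespace Cfsg.Agent.H216.TcT3

open Equiv Cfsg.Agent.H412.Tc

universe u

section ring

variable {V : Type*} [AddCommGroup V]

/-- the subring generated by `B` -/
def RR (B : Subgroup (GV V)) : Subring (AddMonoid.End V) :=
  Subring.closure (Units.val '' (B : Set (GV V)))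

theorem mem_RR {B : Subgroup (GV V)} {b : GV V} (hb : b ∈ B) : (b : AddMonoid.End V) ∈ RR B :=
  Subring.subset_closure ⟨b, hb, rfl⟩

theorem conj_RR {B : Subgroup (GV V)} {h : GV V} (hn : ∀ b ∈ B, h * b * h⁻¹ ∈ B)
    {r : AddMonoid.End V} (hr : r ∈ RR B) : (h : AddMonoid.End V) * r * ((h⁻¹ : GV V) : AddMonoid.End V) ∈ RR B := by
  have hh : ((h⁻¹ : GV V) : AddMonoid.End V) * (h : AddMonoid.End V) = 1 := Units.inv_mul h
  have hh' : (h : AddMonoid.End V) * ((h⁻¹ : GV V) : AddMonoid.End V) = 1 := Units.mul_inv h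
  unfold RR at hr
  induction hr using Subring.closure_induction with
  | mem x hx =>
    obtain ⟨b, hb, rfl⟩ := hx
    have := mem_RR (hn b hb)
    rwa [Units.val_mul, Units.val_mul] at this
  | zero => rw [mul_zero, zero_mul]; exact zero_mem _
  | one => rw [mul_one, hh']; exact one_mem _
  | add x y _ _ hx hy => rw [mul_add, add_mul]; exact add_mem hx hy
  | neg x _ hx => rw [mul_neg, neg_mul]; exact neg_mem hx
  | mul x y _ _ hx hy =>
    have e : (h : AddMonoid.End V) * (x * y) * ((h⁻¹ : GV V) : AddMonoid.End V) =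
      ((h : AddMonoid.End V) * x * ((h⁻¹ : GV V) : AddMonoid.End V)) *
        ((h : AddMonoid.End V) * y * ((h⁻¹ : GV V) : AddMonoid.End V)) := by
      calc (h : AddMonoid.End V) * (x * y) * ((h⁻¹ : GV V) : AddMonoid.End V)
          = (h : AddMonoid.End V) * x * (((h⁻¹ : GV V) : AddMonoid.End V) * (h : AddMonoid.End V)) * y *
              ((h⁻¹ : GV V) : AddMonoid.End V) := by rw [hh, mul_one]; simp only [mul_assoc]
        _ = _ := by simp only [mul_assoc]
    rw [e]; exact mul_mem hx hy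

theorem comm_RR {B : Subgroup (GV V)} {h : GV V} (hc : ∀ b ∈ B, h * b = b * h)
    {r : AddMonoid.End V} (hr : r ∈ RR B) : (h : AddMonoid.End V) * r = r * h := by
  unfold RR at hr
  induction hr using Subring.closure_induction with
  | mem x hx =>
    obtain ⟨b, hb, rfl⟩ := hx
    exact congrArg Units.val (hc b hb)
  | zero => rw [mul_zero, zero_mul]
  | one => rw [mul_one, one_mul]
  | add x y _ _ hx hy => rw [mul_add, add_mul, hx, hy]
  | neg x _ hx => rw [mul_neg, neg_mul, hx]
  | mul x y _ _ hx hy => rw [← mul_assoc, hx, mul_assoc, hy, mul_assoc]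

variable (R : Subring (AddMonoid.End V))

/-- `u` generates a simple submodule -/
def Simp (u : V) : Prop := u ≠ 0 ∧ ∀ r ∈ R, r u ≠ 0 → ∃ s ∈ R, s (r u) = u

/-- the vectors killed by the annihilator of `u` -/
def Ve (u : V) : AddSubgroup V where
  carrier := {v | ∀ r ∈ R, r u = 0 → r v = 0}
  add_mem' := fun {a b} ha hb r hr h => by rw [map_add, ha r hr h, hb r hr h, add_zero]
  zero_mem' := fun r _ _ => map_zero r
  neg_mem' := fun {a} ha r hr h => by rw [map_neg, ha r hr h, neg_zero]

theorem mem_Ve {u v : V} : v ∈ Ve R u ↔ ∀ r ∈ R, r u = 0 → r v = 0 := Iff.rfl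

theorem self_mem_Ve (u : V) : u ∈ Ve R u := fun _ _ h => h

variable {R}

theorem exists_simp [Finite V] {v : V} (hv : v ≠ 0) : ∃ u, Simp R u := by
  let ev : V → (AddMonoid.End V →+ V) := fun v =>
    { toFun := fun f => f v, map_zero' := rfl, map_add' := fun _ _ => rfl }
  obtain ⟨u, hu, hmin⟩ := Set.exists_min_image {v : V | v ≠ 0}
    (fun v => Nat.card (R.toAddSubgroup.map (ev v))) (Set.toFinite _) ⟨v, hv⟩
  refine ⟨u, hu, fun r hr hru => ?_⟩
  have h1 : R.toAddSubgroup.map (ev (r u)) ≤ R.toAddSubgroup.map (ev u) := by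
    rintro _ ⟨s, hs, rfl⟩
    exact ⟨s * r, R.mul_mem hs hr, rfl⟩
  have h2 := AddSubgroup.eq_of_le_of_card_ge h1 (hmin _ hru)
  have h3 : u ∈ R.toAddSubgroup.map (ev (r u)) := by
    rw [h2]; exact ⟨1, R.one_mem, rfl⟩
  obtain ⟨s, hs, h⟩ := h3
  exact ⟨s, hs, h⟩

theorem Simp.ann {u x : V} (hu : Simp R u) (hx : x ∈ Ve R u) (hx0 : x ≠ 0) {r : AddMonoid.End V} (hr : r ∈ R) :
    r x = 0 ↔ r u = 0 := by
  refine ⟨fun h => ?_, hx r hr⟩
  by_contra hru
  obtain ⟨s, hs, hsu⟩ := hu.2 r hr hru
  apply hx0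
  have h1 : (s * r - 1) x = 0 := hx _ (R.sub_mem (R.mul_mem hs hr) R.one_mem) (by
    show s (r u) - u = 0
    rw [hsu, sub_self])
  have h2 : s (r x) - x = 0 := h1
  rw [h, map_zero, zero_sub, neg_eq_zero] at h2
  exact h2

theorem Simp.Ve_eq {u x : V} (hu : Simp R u) (hx : x ∈ Ve R u) (hx0 : x ≠ 0) : Ve R x = Ve R u := by
  ext v
  exact ⟨fun h r hr hru => h r hr ((hu.ann hx hx0 hr).2 hru), fun h r hr hrx => h r hr ((hu.ann hx hx0 hr).1 hrx)⟩

/-- elements normalizing `R` -/
def Nm (R : Subring (AddMonoid.End V)) (h : GV V) : Prop :=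
  ∀ r ∈ R, (h : AddMonoid.End V) * r * ((h⁻¹ : GV V) : AddMonoid.End V) ∈ R

theorem Nm.app {h : GV V} (r : AddMonoid.End V) (v : V) :
    ((h : AddMonoid.End V) * r * ((h⁻¹ : GV V) : AddMonoid.End V)) (h • v) = h • r v := by
  show (h : AddMonoid.End V) (r (h⁻¹ • h • v)) = _
  rw [inv_smul_smul]; rfl

theorem Nm.smul_mem {h : GV V} (hh' : Nm R h⁻¹) {u v : V} (hv : v ∈ Ve R u) : h • v ∈ Ve R (h • u) := by
  intro r hr h1
  have h2 := hh' r hr
  have h3 := hv _ h2 (by
    have := Nm.app (h := h⁻¹) r (h • u)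
    rw [inv_smul_smul] at this
    rw [this, h1, smul_zero])
  have h4 := Nm.app (h := h⁻¹) r (h • v)
  rw [inv_smul_smul, h3] at h4
  rw [← smul_eq_zero_iff_eq h⁻¹, ← h4]

theorem Nm.simp {h : GV V} (hh : Nm R h) (hh' : Nm R h⁻¹) {u : V} (hu : Simp R u) : Simp R (h • u) := by
  refine ⟨fun h0 => hu.1 ((smul_eq_zero_iff_eq h).1 h0), fun r hr h1 => ?_⟩
  have h2 := hh' r hr
  have h3 := Nm.app (h := h⁻¹) r (h • u)
  rw [inv_smul_smul] at h3
  obtain ⟨s, hs, hsu⟩ := hu.2 _ h2 (by
    rw [h3]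
    intro h0
    exact h1 ((smul_eq_zero_iff_eq h⁻¹).1 h0))
  refine ⟨_, hh s hs, ?_⟩
  rw [h3] at hsu
  have h4 := Nm.app (h := h) s (h⁻¹ • r (h • u))
  rw [smul_inv_smul] at h4
  rw [h4, hsu]

/-- `R` is a field if some `Ve R u`, `u` simple, is everything -/
theorem comm_of_top [Finite V] {u : V} (hu : Simp R u) (ht : Ve R u = ⊤) {a b : AddMonoid.End V} (ha : a ∈ R)
    (hb : b ∈ R) : a * b = b * a := by
  have h0 : ∀ r ∈ R, r u = 0 → r = 0 := by
    intro r hr h
    ext v
    have : v ∈ Ve R u := ht ▸ AddSubgroup.mem_top v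
    exact this r hr h
  have hfin : Finite (AddMonoid.End V) :=
    Finite.of_injective (fun f : AddMonoid.End V => (f : V → V)) DFunLike.coe_injective
  have hinv : ∀ r : R, r ≠ 0 → ∃ s : R, s * r = 1 := by
    intro r hr
    obtain ⟨s, hs, hsu⟩ := hu.2 r r.2 (fun h => hr (Subtype.ext (h0 r r.2 h)))
    refine ⟨⟨s, hs⟩, Subtype.ext ?_⟩
    have h1 := h0 (s * r - 1) (R.sub_mem (R.mul_mem hs r.2) R.one_mem) (by
      show s ((r : AddMonoid.End V) u) - u = 0
      rw [hsu, sub_self])
    exact sub_eq_zero.1 h1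
  have hnt : Nontrivial R := by
    refine ⟨⟨1, 0, fun h => hu.1 ?_⟩⟩
    have h1 : ((1 : R) : AddMonoid.End V) u = ((0 : R) : AddMonoid.End V) u := by rw [h]
    exact h1
  have hnz : NoZeroDivisors R := by
    refine ⟨fun {a b} hab => ?_⟩
    by_contra hcon
    push Not at hcon
    obtain ⟨s, hs⟩ := hinv a hcon.1
    apply hcon.2
    calc b = (s * a) * b := by rw [hs, one_mul]
      _ = 0 := by rw [mul_assoc, hab, mul_zero]
  have hdom : IsDomain R := NoZeroDivisors.to_isDomain R
  have hf := Finite.isDomain_to_isField R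
  exact congrArg Subtype.val (hf.mul_comm ⟨a, ha⟩ ⟨b, hb⟩)

end ring

section stab

variable {V : Type u} [AddCommGroup V]

/-- the stabilizer of the additive subgroup `W` in `H` -/
def St (H : Subgroup (GV V)) (W : AddSubgroup V) : Subgroup (GV V) where
  carrier := {h | h ∈ H ∧ ∀ v, h • v ∈ W ↔ v ∈ W}
  mul_mem' := by
    rintro a b ⟨ha, ha'⟩ ⟨hb, hb'⟩
    exact ⟨H.mul_mem ha hb, fun v => by rw [mul_smul, ha', hb']⟩
  one_mem' := ⟨H.one_mem, fun v => by rw [one_smul]⟩
  inv_mem' := by
    rintro a ⟨ha, ha'⟩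
    exact ⟨H.inv_mem ha, fun v => by rw [← ha', smul_inv_smul]⟩

/-- the restriction to `W` -/
def res (H : Subgroup (GV V)) (W : AddSubgroup V) : St H W →* GV W where
  toFun h :=
    { val := { toFun := fun w => ⟨(h : GV V) • (w : V), (h.2.2 w).2 w.2⟩
               map_zero' := Subtype.ext (smul_zero _)
               map_add' := fun a b => Subtype.ext (smul_add _ _ _) }
      inv := { toFun := fun w => ⟨((h⁻¹ : St H W) : GV V) • (w : V), ((h⁻¹).2.2 w).2 w.2⟩
               map_zero' := Subtype.ext (smul_zero _)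
               map_add' := fun a b => Subtype.ext (smul_add _ _ _) }
      val_inv := by
        apply AddMonoidHom.ext
        intro w
        exact Subtype.ext (smul_inv_smul (h : GV V) (w : V))
      inv_val := by
        apply AddMonoidHom.ext
        intro w
        exact Subtype.ext (inv_smul_smul (h : GV V) (w : V)) }
  map_one' := by
    apply Units.ext
    apply AddMonoidHom.ext
    intro w
    exact Subtype.ext (one_smul _ (w : V))
  map_mul' a b := by
    apply Units.ext
    apply AddMonoidHom.ext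
    intro w
    exact Subtype.ext (mul_smul (a : GV V) (b : GV V) (w : V))

theorem res_apply (H : Subgroup (GV V)) (W : AddSubgroup V) (h : St H W) (w : W) :
    ((res H W h • w : W) : V) = (h : GV V) • (w : V) := rfl

end stab

theorem T3.main {K V : Type u} [Field K] [Finite K] [AddCommGroup V] [Finite V] [Module K V]
    {A B : Subgroup (GV V)} {r : ℕ} (S : SetB K V A B r) (hs : ∀ h ∈ cl2 A, Semi K h)
    (hn : ∀ h ∈ cl2 A, ∀ b ∈ B, h * b * h⁻¹ ∈ B) (M : Subgroup (GV V)) (hM : M ≤ cl2 A)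
    (hc : ∀ m ∈ M, ∀ b ∈ B, m * b = b * m) : Group.IsSolvable M := by
  set R := RR B with hR
  have hNm : ∀ h ∈ cl2 A, Nm R h := fun h hh r hr => conj_RR (hn h hh) hr
  have hNm' : ∀ h ∈ cl2 A, Nm R h⁻¹ := fun h hh => hNm _ ((cl2 A).inv_mem hh)
  have hV : ∃ v : V, v ≠ 0 := by
    have h3 := S.card
    by_contra hcon
    push Not at hcon
    have : Subsingleton V := ⟨fun a b => by rw [hcon a, hcon b]⟩
    rw [Nat.card_of_subsingleton (0 : V)] at h3
    omega
  obtain ⟨v0, hv0⟩ := hV
  -- the simple vectors generate `V`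
  have hgen : AddSubgroup.closure {u : V | Simp R u} = ⊤ := by
    rcases S.irr (AddSubgroup.closure {u : V | Simp R u}) (by
      intro g hg u hu
      have hg' := le_cl2 A hg
      induction hu using AddSubgroup.closure_induction with
      | mem x hx => exact AddSubgroup.subset_closure (Nm.simp (hNm g hg') (hNm' g hg') hx)
      | zero => rw [smul_zero]; exact zero_mem _
      | add x y _ _ hx hy => rw [smul_add]; exact add_mem hx hy
      | neg x _ hx => rw [smul_neg]; exact neg_mem hx) with h | h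
    · exfalso
      obtain ⟨u, hu⟩ := exists_simp (R := R) hv0
      have : u ∈ AddSubgroup.closure {u : V | Simp R u} := AddSubgroup.subset_closure hu
      rw [h, AddSubgroup.mem_bot] at this
      exact hu.1 this
    · exact h
  -- `Ve R u` is proper
  have hprop : ∀ u, Simp R u → Ve R u ≠ ⊤ := by
    intro u hu ht
    obtain ⟨b, hb, hbs⟩ := S.ns
    obtain ⟨c, hc⟩ := S.heis.cent b hb fun a ha => Units.ext (comm_of_top hu ht (mem_RR hb) (mem_RR ha))
    exact hbs c hc
  -- stabilizers
  have hstab : ∀ u, Simp R u → ∀ g ∈ cl2 A, ∀ x ∈ Ve R u, x ≠ 0 → g • x ∈ Ve R u → g ∈ St (cl2 A) (Ve R u) := by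
    intro u hu g hg x hx hx0 hgx
    refine ⟨hg, fun v => ?_⟩
    have h1 := hu.Ve_eq hx hx0
    have h2 := hu.Ve_eq hgx (fun h => hx0 ((smul_eq_zero_iff_eq g).1 h))
    constructor
    · intro h
      have h3 := Nm.smul_mem (h := g⁻¹) (u := g • x) (v := g • v) (by rw [inv_inv]; exact hNm g hg) (by rw [h2]; exact h)
      rw [inv_smul_smul, inv_smul_smul, h1] at h3
      exact h3
    · intro h
      have h3 := Nm.smul_mem (h := g) (u := x) (v := v) (hNm' g hg) (by rw [h1]; exact h)
      rw [h2] at h3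
      exact h3
  have hsol : ∀ u, Simp R u → Group.IsSolvable (res (cl2 A) (Ve R u)).range := by
    intro u hu
    have hcard : Nat.card (Ve R u) < Nat.card V := by
      refine lt_of_le_of_ne (Nat.card_le_card_of_injective _ Subtype.val_injective) fun h => hprop u hu ?_
      exact AddSubgroup.eq_top_of_card_eq _ h
    have hG : Group.IsSolvable (A.subgroupOf (St (cl2 A) (Ve R u))) := by
      have h1 := S.solv
      refine Group.isSolvable_of_isSolvable_injective (G := A.subgroupOf (St (cl2 A) (Ve R u))) (G' := A)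
        (f := { toFun := fun x => ⟨((x : St (cl2 A) (Ve R u)) : GV V), x.2⟩
                map_one' := rfl
                map_mul' := fun _ _ => rfl }) ?_
      intro a b hab
      have h2 : ((a : St (cl2 A) (Ve R u)) : GV V) = ((b : St (cl2 A) (Ve R u)) : GV V) :=
        congrArg (fun z : A => (z : GV V)) hab
      exact Subtype.ext (Subtype.ext h2)
    refine S.ih.lin hcard (res (cl2 A) (Ve R u)) (A.subgroupOf (St (cl2 A) (Ve R u))) hG ?_
    intro h x y
    by_cases hxy : x = 0 ∧ y = 0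
    · refine ⟨1, one_mem _, ?_, ?_⟩
      · rw [hxy.1, smul_zero, smul_zero]
      · rw [hxy.2, smul_zero, smul_zero]
    · obtain ⟨g, hg, h1, h2⟩ := h.2.1 (x : V) (y : V)
      have h3 : g ∈ St (cl2 A) (Ve R u) := by
        by_cases hx : x = 0
        · have hy : y ≠ 0 := fun hy => hxy ⟨hx, hy⟩
          exact hstab u hu g (le_cl2 A hg) y y.2 (fun h => hy (Subtype.ext h)) (by
            rw [h2]; exact (h.2.2 _).2 y.2)
        · exact hstab u hu g (le_cl2 A hg) x x.2 (fun h => hx (Subtype.ext h)) (by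
            rw [h1]; exact (h.2.2 _).2 x.2)
      exact ⟨⟨g, h3⟩, hg, Subtype.ext h1, Subtype.ext h2⟩
  -- `M` stabilizes everything
  have hMS : ∀ u, Simp R u → M ≤ St (cl2 A) (Ve R u) := by
    intro u hu m hm
    refine hstab u hu m (hM hm) u (self_mem_Ve R u) hu.1 fun r hr hru => ?_
    have h1 := congrArg (fun f : AddMonoid.End V => f u) (comm_RR (hc m hm) hr)
    have h2 : m • (r u) = r (m • u) := h1
    rw [← h2, hru, smul_zero]
  refine solvable_of_family (ι := {u : V // Simp R u}) (H := fun u => GV (Ve R (u : V)))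
    (fun u => (res (cl2 A) (Ve R (u : V))).comp (Subgroup.inclusion (hMS u u.2))) (fun u => ?_) ?_
  · refine solvable_of_le ?_ (hsol u u.2)
    rintro _ ⟨m, rfl⟩
    exact ⟨_, rfl⟩
  · intro m hm
    have h1 : ∀ u, Simp R u → (m : GV V) • u = u := by
      intro u hu
      have h2 := hm ⟨u, hu⟩
      have h3 := congrArg (fun f : GV (Ve R u) => ((f • (⟨u, self_mem_Ve R u⟩ : Ve R u) : Ve R u) : V)) h2
      have h4 : (((1 : GV (Ve R u)) • (⟨u, self_mem_Ve R u⟩ : Ve R u) : Ve R u) : V) = u := by rw [one_smul]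
      exact h3.trans h4
    apply Subtype.ext
    apply Units.ext
    apply AddMonoidHom.ext
    intro v
    have h2 : v ∈ AddSubgroup.closure {u : V | Simp R u} := by rw [hgen]; exact AddSubgroup.mem_top v
    show (m : GV V) • v = v
    induction h2 using AddSubgroup.closure_induction with
    | mem x hx => exact h1 x hx
    | zero => exact smul_zero _
    | add x y _ _ hx hy => rw [smul_add, hx, hy]
    | neg x _ hx => rw [smul_neg, hx]

end Cfsg.Agent.H216.TcT3
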